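import Cfsg.Agent.H383.Cube.FiTT
import Cfsg.Agent.H546.IF.OddBase

/-!
# S5719, `|A|` odd: `Fi22` (helper618)

* `out_Fi22` : `2 ^ 7` divides `|C_T(σ)|` for the outer involutions `σ`;
* `killO_Fi22`.
-/

set_option autoImplicit false

namespace Cfsg.Agent.H618.IF.FiTT

open Subgroup Cfsg Cfsg.Agent.H383.Cube Cfsg.Agent.H819.CubeGen Cfsg.Agent.H546.IFO
open Cfsg.Agent.H833.Flip (flipA flipA_gen flipA_flipA)
open Cfsg.Agent.Fischer.Fi22PtsRep (gen gen_sq)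
open Cfsg.Agent.H836.EightPts (Cs mem_Cs)

/-- orbit and stabiliser for conjugation -/
theorem card_orbit_eq {K : Type*} [Group K] (M : Subgroup K) (c : K) (S : Set K) (h : ∀ m ∈ M, m * c * m⁻¹ ∈ S)
    (ht : ∀ s ∈ S, ∃ m ∈ M, m * c * m⁻¹ = s) :
    Nat.card ↥M = S.ncard * Nat.card ↥(M ⊓ centralizer ({c} : Set K)) := by
  let act : MulAction ↥M K := MulAction.compHom K ((MulAut.conj : K →* MulAut K).comp M.subtype)
  have hs : ∀ (m : ↥M) (x : K), m • x = (m : K) * x * (m : K)⁻¹ := fun m x => rfl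
  have h1 := Nat.card_congr (MulAction.orbitProdStabilizerEquivGroup ↥M c)
  have h2 : MulAction.orbit ↥M c = S := by
    ext s
    constructor
    · rintro ⟨m, rfl⟩
      exact h m m.2
    · intro hs'
      obtain ⟨m, hm, hms⟩ := ht s hs'
      exact ⟨⟨m, hm⟩, hms⟩
  have h3 : MulAction.stabilizer ↥M c = (M ⊓ centralizer ({c} : Set K)).subgroupOf M := by
    ext m
    rw [MulAction.mem_stabilizer_iff, mem_subgroupOf, hs]
    constructor
    · intro hm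
      exact ⟨m.2, mem_centralizer_singleton_iff.2 (mul_inv_eq_iff_eq_mul.1 hm)⟩
    · rintro ⟨-, hm⟩
      exact mul_inv_eq_iff_eq_mul.2 (mem_centralizer_singleton_iff.1 hm)
  rw [Nat.card_prod, h3, Nat.card_congr (subgroupOfEquivOfLe inf_le_left).toEquiv, h2, Nat.card_coe_set_eq] at h1
  exact h1.symm

theorem card_d : Nat.card ↥(Cs ⊓ centralizer ({gen .d} : Set Cfsg.Spor.Fi22)) = 2903040 := by
  have hdT : gen .d ∈ Cfsg.Agent.R01.Fi22Facts.T := Cfsg.Agent.R01.Fi22Facts.gen_mem .d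
  have hdC : gen .d ∈ Cs := Cfsg.Agent.H836.EightMain.d_mem
  have h := card_orbit_eq Cs (gen .d) (Cfsg.Agent.R01.Fi22Facts.T ∩ (Cs : Set Cfsg.Spor.Fi22))
    (fun m hm => ⟨Cfsg.Agent.R08.AutT.tFacts.conj _ _ hdT, mul_mem (mul_mem hm hdC) (inv_mem hm)⟩)
    (fun s hs => by
      obtain ⟨m, hm, h1⟩ := Cfsg.Agent.H836.EightMain.transitive hdT hdC hs.1 hs.2
      exact ⟨m, hm, h1⟩)
  rw [Cfsg.Agent.H836.EightMain.card_Cs, Cfsg.Agent.H836.EightMain.ncard_fixed] at h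
  omega

/-- **`2 ^ 7` divides the order of the centraliser of an outer involution.** -/
theorem out_Fi22 : OutP Cfsg.Spor.Fi22 fun σ => 2 ^ 7 ∣ Nat.card (fix σ) := by
  intro σ hσ hout
  have := Cfsg.Agent.R01.Fi22Facts.finite
  have h := Cfsg.Agent.H830.OutInv22.outer_inv σ hσ (by
    rintro ⟨g, hg⟩
    exact hout g hg.symm)
  rw [card_fix]
  rcases h with h | h | h <;> rw [card_fix_congr h, ← card_fix]
  · refine dvd_fix (B := Cs) (fun b hb => mem_Cs.1 hb) ?_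
    rw [Cfsg.Agent.H836.EightMain.card_Cs]
    norm_num
  · refine dvd_fix (B := Cs ⊓ centralizer ({gen .d} : Set Cfsg.Spor.Fi22)) ?_ (by rw [card_d]; norm_num)
    rintro x ⟨hx1, hx2⟩
    replace hx2 := mem_centralizer_singleton_iff.1 hx2
    change flipA (gen .d * x * (gen .d)⁻¹) = x
    rw [← hx2, mul_inv_cancel_right]
    exact hx1
  · refine dvd_fix (B := Cfsg.Agent.H833.SixPts.Ct) (fun x hx => Cfsg.Agent.H833.SixPts.mem_Ct.1 hx) ?_
    rw [Cfsg.Agent.H833.SixEnd.card_Ct]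
    norm_num

/-- **`Fi22`, `|A|` odd.** -/
theorem killO_fi22 : Cfsg.Agent.H209.Fxy.KillO Cfsg.Spor.Fi22 := by
  have := Cfsg.Agent.R01.Fi22Facts.finite
  have I := Cfsg.Agent.H836.inv_of_iso (MulEquiv.refl Cfsg.Spor.Fi22)
  have C := I.ctx
  have := Cfsg.Agent.R01.Fi22Facts.isSimple
  refine killO_cube ?_ Cfsg.Agent.H383.Cube.FiTT.cube_fi22 out_Fi22 ?_
  · obtain ⟨a, ha, b, hb, h⟩ : ∃ a ∈ Cfsg.Agent.KFacts.FiTT.TK (MulEquiv.refl Cfsg.Spor.Fi22), ∃ b ∈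
        Cfsg.Agent.KFacts.FiTT.TK (MulEquiv.refl Cfsg.Spor.Fi22), a * b ≠ b * a := by
      obtain ⟨a, ha, -⟩ := C.mupos
      obtain ⟨b, hb, h⟩ : {e | e ∈ Cfsg.Agent.KFacts.FiTT.TK (MulEquiv.refl Cfsg.Spor.Fi22) ∧ a * e ≠ e * a}.Nonempty := by
        rw [← Set.ncard_pos, C.far ha]; norm_num
      exact ⟨a, ha, b, hb, h⟩
    exact ⟨a, b, h⟩
  · rw [C.card]
    norm_num

theorem killO_Fi22 {G : Type*} [Group G] (h : Cfsg.Spor.IsoFi22 G) : Cfsg.Agent.H209.Fxy.KillO G := by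
  obtain ⟨e⟩ := h
  exact KillO.congr e.symm killO_fi22

end Cfsg.Agent.H618.IF.FiTT
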